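import Mathlib
import Cfsg.Agent.S0023
import Cfsg.Agent.S0056
import Cfsg.Agent.Lib.Helper1.Fitting
import Cfsg.Agent.Lib.Helper23.SecRank

set_option autoImplicit false

namespace Cfsg.Agent.Lib.Lead

open Subgroup
open scoped Pointwise

theorem isCyclic_of_le' {H : Type*} [Group H] {A B : Subgroup H} (h : A ≤ B) (hB : IsCyclic B) :
    IsCyclic A :=
  isCyclic_of_injective (Subgroup.inclusion h) (Subgroup.inclusion_injective h)

/-- In a cyclic subgroup, an element whose order divides the prime order of `v` is a power of `v`. -/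
theorem mem_zpowers_of_cyclic {H : Type*} [Group H] [Finite H] {Q : Subgroup H} (hQ : IsCyclic Q)
    {v w : H} (hv : v ∈ Q) (hw : w ∈ Q) {r : ℕ} (hr : 0 < r) (hvr : orderOf v = r) (hwr : w ^ r = 1) :
    w ∈ zpowers v := by
  classical
  have := Fintype.ofFinite Q
  have h1 := IsCyclic.card_pow_eq_one_le (α := Q) hr
  set S : Finset Q := {a : Q | a ^ r = 1} with hS
  set T : Finset Q := (Finset.univ : Finset Q).filter (fun a => (a : H) ∈ zpowers v) with hT
  have hTS : T ⊆ S := by
    intro a ha
    rw [hT, Finset.mem_filter] at ha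
    rw [hS, Finset.mem_filter]
    refine ⟨Finset.mem_univ _, ?_⟩
    obtain ⟨k, hk⟩ := ha.2
    ext
    simp only [Subgroup.coe_pow, Subgroup.coe_one]
    rw [← hk, ← zpow_natCast, ← zpow_mul, mul_comm, zpow_mul, zpow_natCast, ← hvr, pow_orderOf_eq_one,
      one_zpow]
  have hTcard : T.card = r := by
    have h2 : T.card = Nat.card (zpowers v) := by
      rw [← Fintype.card_coe, ← Nat.card_eq_fintype_card]
      apply Nat.card_congr
      refine ⟨fun a => ⟨(a.1 : H), (Finset.mem_filter.mp a.2).2⟩,
        fun b => ⟨⟨b.1, (zpowers_le.mpr hv) b.2⟩, Finset.mem_filter.mpr ⟨Finset.mem_univ _, b.2⟩⟩,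
        fun a => rfl, fun b => rfl⟩
    rw [h2, Nat.card_zpowers, hvr]
  have hEq : T = S := Finset.eq_of_subset_of_card_le hTS (by rw [hTcard]; exact h1)
  have hwS : (⟨w, hw⟩ : Q) ∈ S := by
    rw [hS, Finset.mem_filter]
    refine ⟨Finset.mem_univ _, ?_⟩
    ext
    simpa using hwr
  rw [← hEq, hT, Finset.mem_filter] at hwS
  exact hwS.2

/-- A nontrivial finite group with all Sylow subgroups cyclic and all subgroups of order `pq` cyclic has
nontrivial centre: the elements of order the smallest prime are central. -/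
theorem center_ne_bot_of_cyclic_sylow {H : Type*} [Group H] [Finite H] [Nontrivial H]
    (hcyc : ∀ (p : ℕ) [Fact p.Prime] (P : Sylow p H), IsCyclic P)
    (hpq : ∀ (A : Subgroup H) (p q : ℕ), p.Prime → q.Prime → Nat.card A = p * q → IsCyclic A) :
    Subgroup.center H ≠ ⊥ := by
  classical
  have hn : Nat.card H ≠ 1 := Finite.one_lt_card.ne'
  obtain ⟨p, hp⟩ : ∃ p, (Nat.card H).minFac = p := ⟨_, rfl⟩
  have hpp : p.Prime := hp ▸ Nat.minFac_prime hn
  have := Fact.mk hpp
  obtain ⟨P⟩ : Nonempty (Sylow p H) := inferInstance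
  have hP : IsCyclic P := hcyc p P
  set M : Subgroup H := (MonoidHom.transferSylow P (hP.normalizer_le_centralizer hp)).ker with hM
  have hMP : M.IsComplement' P := IsCyclic.isComplement' hp hP
  have hMn : M.Normal := MonoidHom.normal_ker _
  have hpM : ¬ p ∣ Nat.card M := MonoidHom.not_dvd_card_ker_transferSylow P _
  have hpH : p ∣ Nat.card H := hp ▸ Nat.minFac_dvd _
  have hpP : p ∣ Nat.card P := by
    have h1 := hMP.card_mul_card
    rw [← h1] at hpH
    exact (hpp.dvd_mul.mp hpH).resolve_left hpM
  obtain ⟨x0, hx0⟩ := exists_prime_orderOf_dvd_card' (G := P) p hpP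
  set x : H := (x0 : H) with hx
  have hxP : x ∈ (P : Subgroup H) := x0.2
  have hxo : orderOf x = p := by rw [hx, Subgroup.orderOf_coe, hx0]
  set X : Subgroup H := zpowers x with hX
  have hXcard : Nat.card X = p := by rw [hX, Nat.card_zpowers, hxo]
  have hcopXM : (Nat.card X).Coprime (Nat.card M) := by
    rw [hXcard]; exact (Nat.Prime.coprime_iff_not_dvd hpp).mpr hpM
  have hXM : X ≤ normalizer (M : Set H) := by
    rw [normalizer_eq_top_iff.mpr hMn]; exact le_top
  have hXsol : Group.IsSolvable X := by
    have : IsCyclic X := by rw [hX]; infer_instance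
    let _ := IsCyclic.commGroup (α := X)
    infer_instance
  -- `X` centralises `M`
  have hC : M ≤ centralizer (X : Set H) := by
    set C : Subgroup H := M ⊓ centralizer (X : Set H) with hCdef
    have hdvd : Nat.card M ∣ Nat.card C := by
      apply Cfsg.Agent.Lib.Helper1.dvd_of_forall_prime_pow_dvd Nat.card_pos.ne' Nat.card_pos.ne'
      intro q hq
      have := Fact.mk hq
      obtain ⟨Q, hQ⟩ := Cfsg.Agent.S0023.result X M hXM hcopXM (Or.inl hXsol) q
      set Q' : Subgroup H := (Q : Subgroup M).map M.subtype with hQ'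
      have hQ'M : Q' ≤ M := map_subtype_le _
      have hQ'p : IsPGroup q Q' := Q.2.map _
      obtain ⟨R, hR⟩ := hQ'p.exists_le_sylow
      have hQ'c : IsCyclic Q' := isCyclic_of_le' hR (hcyc q R)
      have hQ'comm : IsMulCommutative Q' := by
        let _ := IsCyclic.commGroup (α := Q')
        exact ⟨⟨fun a b => mul_comm a b⟩⟩
      have hQ'card : Nat.card Q' = q ^ (Nat.card M).factorization q := by
        rw [hQ', Subgroup.card_map_of_injective M.subtype_injective]
        exact Q.card_eq_multiplicity
      have hcop : (Nat.card X).Coprime (Nat.card Q') :=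
        hcopXM.coprime_dvd_right (Subgroup.card_dvd_of_le hQ'M)
      have hcent : X ≤ centralizer (Q' : Set H) := by
        apply Cfsg.Agent.S0056.result X Q' hQ hcop
        intro v hv hvr a ha
        set r := orderOf v with hr
        set T : Subgroup H := zpowers v with hT
        have hTcard : Nat.card T = r := by rw [hT, Nat.card_zpowers]
        have hXT : X ≤ normalizer (T : Set H) := by
          have key : ∀ b ∈ X, ∀ t ∈ T, b * t * b⁻¹ ∈ T := by
            intro b hb t ht
            have htQ : t ∈ Q' := (zpowers_le.mpr hv) ht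
            have h1 : b * t * b⁻¹ ∈ Q' := ((mem_normalizer_iff.mp (hQ hb)) t).mp htQ
            apply mem_zpowers_of_cyclic hQ'c hv h1 hvr.pos rfl
            rw [conj_pow]
            have : t ^ r = 1 := by
              obtain ⟨k, rfl⟩ := ht
              simp only
              rw [← zpow_natCast, ← zpow_mul, mul_comm, zpow_mul, zpow_natCast, hr,
                pow_orderOf_eq_one, one_zpow]
            rw [this]; group
          intro b hb
          rw [mem_normalizer_iff]
          intro t
          refine ⟨key b hb t, fun h => ?_⟩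
          have := key b⁻¹ (X.inv_mem hb) _ h
          have h2 : b⁻¹ * (b * t * b⁻¹) * b⁻¹⁻¹ = t := by group
          rwa [h2] at this
        have hrM : r ∣ Nat.card M := by
          rw [← hTcard]
          exact Subgroup.card_dvd_of_le ((zpowers_le.mpr hv).trans hQ'M)
        have hd : X ⊓ T = ⊥ := by
          apply (Subgroup.disjoint_of_coprime_natCard _).eq_bot
          rw [hTcard]
          exact hcopXM.coprime_dvd_right hrM
        have hL : Nat.card (X ⊔ T : Subgroup H) = p * r := by
          rw [Cfsg.Agent.Lib.Helper23.card_sup_eq_mul X T hXT hd, hXcard, hTcard]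
        have hLc : IsCyclic (X ⊔ T : Subgroup H) := hpq _ p r hpp hvr hL
        let _ := IsCyclic.commGroup (α := (X ⊔ T : Subgroup H))
        have h3 : (⟨a, (le_sup_left : X ≤ X ⊔ T) ha⟩ : (X ⊔ T : Subgroup H)) *
            ⟨v, (le_sup_right : T ≤ X ⊔ T) (mem_zpowers v)⟩ =
            ⟨v, (le_sup_right : T ≤ X ⊔ T) (mem_zpowers v)⟩ *
              ⟨a, (le_sup_left : X ≤ X ⊔ T) ha⟩ := mul_comm _ _
        exact congrArg Subtype.val h3
      rw [← hQ'card]
      apply Subgroup.card_dvd_of_le
      refine le_inf hQ'M ?_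
      exact Subgroup.le_centralizer_iff.mp hcent
    have : C = M := Subgroup.eq_of_le_of_card_ge inf_le_left (Nat.le_of_dvd Nat.card_pos hdvd)
    rw [← this]; exact inf_le_right
  have hxc : x ∈ center H := by
    rw [Subgroup.mem_center_iff]
    intro g
    have hg : g ∈ (M : Set H) * ((P : Subgroup H) : Set H) := by
      rw [hMP.mul_eq]; exact Set.mem_univ g
    obtain ⟨m, hm, y, hy, rfl⟩ := hg
    have h1 : m * x = x * m := by
      have := (Subgroup.mem_centralizer_iff.mp (hC hm)) x (mem_zpowers x)
      exact this.symm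
    have h2 : y * x = x * y := by
      let _ := IsCyclic.commGroup (α := (P : Subgroup H))
      have h3 : (⟨y, hy⟩ : (P : Subgroup H)) * ⟨x, hxP⟩ = ⟨x, hxP⟩ * ⟨y, hy⟩ := mul_comm _ _
      exact congrArg Subtype.val h3
    simp only
    rw [mul_assoc, h2, ← mul_assoc, h1, mul_assoc]
  intro hbot
  rw [hbot, Subgroup.mem_bot] at hxc
  rw [hxc, orderOf_one] at hxo
  exact hpp.one_lt.ne hxo

end Cfsg.Agent.Lib.Lead
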